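import Mathlib

/-!
# Alternating groups with a prime whose relative Weyl group is small (helper420)

`alt_prime_le` : if `r ≤ m` is a prime, `r ≥ 5`, and for all `x, y ∈ S ≅ A_m`, `|x| = r`, `y x y⁻¹ ∈ ⟨x⟩`: `y ^ 6` commutes
with `x`, then `r ≤ 13`.
-/

set_option autoImplicit false

namespace Cfsg.Agent.H420.Rg

open Equiv Subgroup

theorem alt_prime_le {m r : ℕ} (hr : r.Prime) (h5 : 5 ≤ r) (hrm : r ≤ m) {S : Type*} [Group S]
    (e : S ≃* alternatingGroup (Fin m))
    (haut : ∀ x y : S, orderOf x = r → y * x * y⁻¹ ∈ zpowers x → Commute (y ^ 6) x) : r ≤ 13 := by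
  have := Fact.mk hr
  obtain ⟨g, hg⟩ := IsCyclic.exists_generator (α := (ZMod r)ˣ)
  have hog : orderOf g = r - 1 := by
    rw [orderOf_eq_card_of_forall_mem_zpowers hg, Nat.card_eq_fintype_card, ZMod.card_units]
  -- the embedding
  have hf : Nonempty (ZMod r ↪ Fin m) := by
    rw [Function.Embedding.nonempty_iff_card_le, ZMod.card, Fintype.card_fin]
    exact hrm
  obtain ⟨f⟩ := hf
  let E : Perm (ZMod r) →* Perm (Fin m) := Equiv.Perm.extendDomainHom f.toEquivRange
  have hE : Function.Injective E := Equiv.Perm.extendDomainHom_injective _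
  have hEs : ∀ x, Perm.sign (E x) = Perm.sign x := fun x => by
    show Perm.sign (x.extendDomain f.toEquivRange) = _
    exact Equiv.Perm.sign_extendDomain _ _
  let X : Perm (ZMod r) := Equiv.addRight 1
  let Y : Perm (ZMod r) := Units.mulLeft g
  have hXpow : ∀ k : ℕ, ∀ t : ZMod r, (X ^ k) t = t + k := by
    intro k
    induction k with
    | zero => intro t; simp
    | succ k ih =>
      intro t
      rw [pow_succ', Perm.mul_apply, ih]
      show t + k + 1 = _
      push_cast
      ring
  have hX1 : X ^ r = 1 := by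
    ext t
    rw [hXpow]
    simp
  have hXne : X ≠ 1 := by
    intro h
    have h1 := congrArg (fun z : Perm (ZMod r) => z 0) h
    have h2 : (0 : ZMod r) + 1 = 0 := h1
    rw [zero_add] at h2
    exact one_ne_zero h2
  have hXo : orderOf X = r := orderOf_eq_prime hX1 hXne
  have hodd : Odd r := hr.odd_of_ne_two (by omega)
  have hXs : Perm.sign X = 1 := by
    have h1 : (Perm.sign X) ^ r = 1 := by rw [← map_pow, hX1, map_one]
    rcases Int.units_eq_one_or (Perm.sign X) with h | h
    · exact h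
    · rw [h, hodd.neg_one_pow] at h1
      exact absurd h1 (by decide)
  -- conjugation
  have hYpow : ∀ k : ℕ, ∀ t : ZMod r, (Y ^ k) t = ((g ^ k : (ZMod r)ˣ) : ZMod r) * t := by
    intro k
    induction k with
    | zero => intro t; simp
    | succ k ih =>
      intro t
      rw [pow_succ', Perm.mul_apply, ih]
      show (g : ZMod r) * _ = _
      rw [pow_succ']
      push_cast
      ring
  have hconj : ∀ k : ℕ, Y ^ k * X = X ^ (((g ^ k : (ZMod r)ˣ) : ZMod r).val) * Y ^ k := by
    intro k
    ext t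
    rw [Perm.mul_apply, Perm.mul_apply, hYpow, hXpow, hYpow, ZMod.natCast_val, ZMod.cast_id']
    show _ * (t + 1) = _
    rw [id]
    ring
  let x : alternatingGroup (Fin m) := ⟨E X, by rw [Equiv.Perm.mem_alternatingGroup, hEs, hXs]⟩
  let y : alternatingGroup (Fin m) := ⟨E (Y ^ 2), by
    rw [Equiv.Perm.mem_alternatingGroup, hEs, map_pow]
    exact Int.units_sq _⟩
  have hxo : orderOf x = r := by
    rw [← Subgroup.orderOf_coe]
    show orderOf (E X) = r
    rw [orderOf_injective E hE, hXo]
  have hyx : y * x = x ^ (((g ^ 2 : (ZMod r)ˣ) : ZMod r).val) * y := by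
    apply Subtype.ext
    show E (Y ^ 2) * E X = (E X) ^ _ * E (Y ^ 2)
    rw [← map_mul, ← map_pow, ← map_mul, hconj]
  have h1 := haut (e.symm x) (e.symm y) (by rw [← hxo]; exact orderOf_injective e.symm.toMonoidHom e.symm.injective x) (by
    rw [← map_mul, ← map_inv, ← map_mul, hyx, mul_inv_cancel_right, map_pow]
    exact pow_mem (mem_zpowers _) _)
  have h2 : Commute (y ^ 6) x := by
    have h3 : e.symm (y ^ 6 * x) = e.symm (x * y ^ 6) := by
      rw [map_mul, map_mul, map_pow]
      exact h1.eq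
    exact e.symm.injective h3
  have h4 : Y ^ 12 * X = X * Y ^ 12 := by
    apply hE
    have h5 := congrArg (Subtype.val : alternatingGroup (Fin m) → Perm (Fin m)) h2.eq
    have h6 : (E (Y ^ 2)) ^ 6 * E X = E X * (E (Y ^ 2)) ^ 6 := h5
    rw [← map_pow, ← map_mul, ← map_mul, ← pow_mul] at h6
    exact h6
  have h7 := congrArg (fun z : Perm (ZMod r) => z 0) h4
  have h8 : ((g ^ 12 : (ZMod r)ˣ) : ZMod r) = 1 := by
    have h9 : (Y ^ 12) (X 0) = X ((Y ^ 12) 0) := h7
    rw [hYpow, hYpow] at h9
    have h10 : ((g ^ 12 : (ZMod r)ˣ) : ZMod r) * (0 + 1) = ((g ^ 12 : (ZMod r)ˣ) : ZMod r) * 0 + 1 := h9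
    simpa using h10
  have h11 : g ^ 12 = 1 := Units.ext h8
  have h12 : r - 1 ∣ 12 := by
    rw [← hog]
    exact orderOf_dvd_of_pow_eq_one h11
  have := Nat.le_of_dvd (by norm_num) h12
  omega

end Cfsg.Agent.H420.Rg
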