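import Cfsg.Agent.H454.Reg.Tools
import Cfsg.Agent.H55.OutGen

/-!
# S3691: factorizations of a simple group `S` "up to `e ∣ |Out S|`" (helper420)

`Tri S X Y e` : `X`, `Y` proper subgroups of `S`, no nontrivial element of `X` conjugate to one of `Y`,
`e ∣ |Out S|`, `|X| |Y| e = |S|`;
`tri_of_fac` : from the exact factorizations of the almost simple groups with socle `S`.
-/

set_option autoImplicit false

namespace Cfsg.Agent.H420.Rg

open Cfsg Subgroup Cfsg.Agent.H454.Reg

universe u v

structure Tri (S : Type v) [Group S] (X Y : Subgroup S) (e : ℕ) : Prop where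
  left : X ≠ ⊤
  right : Y ≠ ⊤
  out : e ∣ Nat.card (Out S)
  card : Nat.card X * Nat.card Y * e = Nat.card S
  conj : ∀ x ∈ X, ∀ y ∈ Y, IsConj x y → x = 1
  both : ∀ r : ℕ, r.Prime → (∀ P : Subgroup S, IsPGroup r P → IsCyclic P) → r ∣ Nat.card X → r ∣ Nat.card Y → False
  large : 3 * Nat.factorial 29 < Nat.card S

namespace Tri

variable {S : Type v} [Group S] {X Y : Subgroup S} {e : ℕ}

theorem symm (h : Tri S X Y e) : Tri S Y X e :=
  ⟨h.right, h.left, h.out, by rw [mul_comm (Nat.card Y)]; exact h.card, fun y hy x hx hc => by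
    have h1 := h.conj x hx y hy hc.symm
    rw [h1] at hc
    exact isConj_one_left.1 hc, fun r hr hc h1 h2 => h.both r hr hc h2 h1, h.large⟩

theorem index_left [Finite S] (h : Tri S X Y e) : X.index = Nat.card Y * e := by
  have h1 := X.card_mul_index
  rw [← h.card, mul_assoc] at h1
  exact Nat.eq_of_mul_eq_mul_left Nat.card_pos h1

theorem index_right [Finite S] (h : Tri S X Y e) : Y.index = Nat.card X * e := h.symm.index_left

theorem epos [Finite S] (h : Tri S X Y e) : 0 < e := by
  rcases Nat.eq_zero_or_pos e with rfl | h1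
  · have := h.card
    rw [mul_zero] at this
    exact absurd this Nat.card_pos.ne
  · exact h1

/-- a prime divisor of `|S|` prime to `e` divides one of the factors -/
theorem prime_dvd (h : Tri S X Y e) {r : ℕ} (hr : r.Prime) (hrS : r ∣ Nat.card S) (hre : ¬ r ∣ e) :
    r ∣ Nat.card X ∨ r ∣ Nat.card Y := by
  rw [← h.card, hr.dvd_mul, hr.dvd_mul] at hrS
  rcases hrS with h1 | h1
  · exact h1
  · exact absurd h1 hre

/-- the exponents of a prime -/
theorem val [Finite S] (h : Tri S X Y e) (r : ℕ) :
    (Nat.card X).factorization r + (Nat.card Y).factorization r + e.factorization r =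
      (Nat.card S).factorization r := by
  have h1 : Nat.card X ≠ 0 := Nat.card_pos.ne'
  have h2 : Nat.card Y ≠ 0 := Nat.card_pos.ne'
  have he : e ≠ 0 := h.epos.ne'
  rw [← h.card, Nat.factorization_mul (mul_ne_zero h1 h2) he, Nat.factorization_mul h1 h2]
  simp only [Finsupp.add_apply]

end Tri

/-- transport of an exact factorization of an almost simple group -/
theorem tri_of_fac {G : Type u} [Group G] [Finite G] {T H B : Subgroup G} (h : Fac T H B) {S : Type v} [Group S] [Finite S]
    (f : T ≃* S) : ∃ (X Y : Subgroup S) (e : ℕ), Tri S X Y e ∧ e ∣ T.index ∧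
      X = (H.subgroupOf T).map f.toMonoidHom ∧ Y = (B.subgroupOf T).map f.toMonoidHom := by
  obtain ⟨e, he1, he2, he3⟩ := h.card0
  have hc : ∀ X : Subgroup T, Nat.card (X.map f.toMonoidHom) = Nat.card X := fun X =>
    card_map_of_injective f.injective
  have ht : ∀ X : Subgroup T, X.map f.toMonoidHom = ⊤ → X = ⊤ := by
    intro X hX
    rw [← card_eq_iff_eq_top] at hX ⊢
    rw [← hc, hX]
    exact (Nat.card_congr f.toEquiv).symm
  refine ⟨_, _, e, ⟨fun h1 => h.ne_top_left (ht _ h1), fun h1 => h.ne_top_right (ht _ h1), ?_, ?_, ?_, ?_, ?_⟩,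
    he1, rfl, rfl⟩
  · rw [← H55.OutGen.card_out_congr f]; exact he2
  · rw [hc, hc, he3]; exact Nat.card_congr f.toEquiv
  · rintro _ ⟨x, hx, rfl⟩ _ ⟨y, hy, rfl⟩ hxy
    have h1 : IsConj x y := by
      obtain ⟨g, hg⟩ := isConj_iff.1 hxy
      rw [isConj_iff]
      refine ⟨f.symm g, f.injective ?_⟩
      rw [map_mul, map_mul, map_inv, f.apply_symm_apply]
      exact hg
    obtain ⟨g, hg⟩ := isConj_iff.1 h1
    have h2 : (x : G) = 1 := h.not_conj hx (g : G) (by
      have : (g : G) * (x : G) * (g : G)⁻¹ = (y : G) := by rw [← hg]; rfl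
      rw [this]; exact hy)
    have h3 : x = 1 := Subtype.ext h2
    rw [h3, map_one]
  · intro r hr hcyc h1 h2
    rw [hc] at h1 h2
    refine h.not_both hr (fun P hP => ?_) h1 h2
    have h3 := hcyc _ (hP.map f.toMonoidHom)
    exact isCyclic_of_injective (f.toMonoidHom.subgroupMap P) (fun a b hab => by
      apply Subtype.ext
      apply f.injective
      exact congrArg Subtype.val hab)
  · rw [← Nat.card_congr f.toEquiv]; exact h.large

end Cfsg.Agent.H420.Rg
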