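import Mathlib

/-!
# S3691, `G₂(q)`: numbers (helper420)

* `lpart_le` : a power of a prime `l ∤ q` dividing `|G₂(q)|` is at most `4 (q + 1)²`;
* `nf` : `p ^ (2 w + u) (4 (q + 1)² + 1) < q³` for `q = p ^ f > 175`, `p ^ w ∣ 6`, `p ^ u ∣ f`.
-/

set_option autoImplicit false

namespace Cfsg.Agent.H420.Rg

theorem facs {q : ℕ} (hq : 2 ≤ q) :
    q ^ 6 * ((q ^ 2 - 1) * (q ^ 6 - 1)) = q ^ 6 * ((q - 1) ^ 2 * ((q + 1) ^ 2 * ((q ^ 2 + q + 1) * (q ^ 2 - q + 1)))) := by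
  obtain ⟨x, rfl⟩ : ∃ x, q = x + 1 := ⟨q - 1, by omega⟩
  have h1 : (x + 1) ^ 2 - 1 = x * (x + 2) := by
    apply Nat.sub_eq_of_eq_add; ring
  have h2 : (x + 1) ^ 2 - (x + 1) + 1 = x ^ 2 + x + 1 := by
    have : (x + 1) ^ 2 - (x + 1) = x ^ 2 + x := by apply Nat.sub_eq_of_eq_add; ring
    rw [this]
  have h3 : (x + 1) ^ 6 - 1 = x * (x + 2) * (((x + 1) ^ 2 + (x + 1) + 1) * (x ^ 2 + x + 1)) := by
    apply Nat.sub_eq_of_eq_add; ring
  rw [h1, h2, h3, Nat.add_sub_cancel]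
  ring

theorem lpart_le {q l k : ℕ} (hl : l.Prime) (hlq : ¬ l ∣ q) (hq : 2 ≤ q)
    (h : l ^ k ∣ q ^ 6 * ((q ^ 2 - 1) * (q ^ 6 - 1))) : l ^ k ≤ 4 * (q + 1) ^ 2 := by
  rw [facs hq] at h
  have cop : ∀ z, ¬ l ∣ z → Nat.Coprime (l ^ k) z := fun z hz => Nat.Coprime.pow_left k ((hl.coprime_iff_not_dvd).2 hz)
  have copp : ∀ z n, ¬ l ∣ z → Nat.Coprime (l ^ k) (z ^ n) := fun z n hz => (cop z hz).pow_right n
  have h0 := (copp q 6 hlq).dvd_of_dvd_mul_left h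
  obtain ⟨x, rfl⟩ : ∃ x, q = x + 1 := ⟨q - 1, by omega⟩
  have h2 : (x + 1) ^ 2 - (x + 1) + 1 = x ^ 2 + x + 1 := by
    have : (x + 1) ^ 2 - (x + 1) = x ^ 2 + x := by apply Nat.sub_eq_of_eq_add; ring
    rw [this]
  have h3 : (x + 1) ^ 2 + (x + 1) + 1 = x ^ 2 + 3 * x + 3 := by ring
  rw [h2, h3, Nat.add_sub_cancel, show x + 1 + 1 = x + 2 by ring] at h0
  rw [show x + 1 + 1 = x + 2 by ring]
  have hx : 1 ≤ x := by omega
  have le2 : ∀ z, 0 < z → l ^ k ∣ z → z ≤ 4 * (x + 2) ^ 2 → l ^ k ≤ 4 * (x + 2) ^ 2 := fun z h1 h2 h3 =>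
    (Nat.le_of_dvd h1 h2).trans h3
  by_cases hl2 : l = 2
  · subst hl2
    have hxe : Even x := by
      rcases Nat.even_or_odd x with h | h
      · exact h
      · exact absurd (even_iff_two_dvd.1 (h.add_odd odd_one)) hlq
    obtain ⟨t, ht⟩ := hxe
    obtain rfl : x = 2 * t := by omega
    have hc1 : ¬ 2 ∣ (2 * t) ^ 2 + 3 * (2 * t) + 3 := by
      rintro ⟨c, hc⟩
      have : (2 * t) ^ 2 = 2 * (2 * t ^ 2) := by ring
      omega
    have hc2 : ¬ 2 ∣ (2 * t) ^ 2 + 2 * t + 1 := by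
      rintro ⟨c, hc⟩
      have : (2 * t) ^ 2 = 2 * (2 * t ^ 2) := by ring
      omega
    have h4 : 2 ^ k ∣ (2 * t) ^ 2 * (2 * t + 2) ^ 2 := by
      rw [← mul_assoc] at h0
      exact ((cop _ hc1).mul_right (cop _ hc2)).dvd_of_dvd_mul_right h0
    have h5 : (2 * t) ^ 2 * (2 * t + 2) ^ 2 = 16 * t ^ 2 * (t + 1) ^ 2 := by ring
    rw [h5] at h4
    rcases Nat.even_or_odd t with ht | ht
    · have h6 : ¬ 2 ∣ t + 1 := by
        obtain ⟨s, hs⟩ := ht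
        omega
      have h7 := (copp _ 2 h6).dvd_of_dvd_mul_right h4
      have ht0 : 0 < t := by omega
      exact le2 _ (by positivity) h7 (by nlinarith)
    · have h6 : ¬ 2 ∣ t := by
        obtain ⟨s, hs⟩ := ht
        omega
      have h8 : 2 ^ k ∣ t ^ 2 * (16 * (t + 1) ^ 2) := by rw [show t ^ 2 * (16 * (t + 1) ^ 2) = 16 * t ^ 2 * (t + 1) ^ 2 by ring]; exact h4
      have h7 := (copp _ 2 h6).dvd_of_dvd_mul_left h8
      exact le2 _ (by positivity) h7 (by nlinarith)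
  by_cases hl3 : l = 3
  · subst hl3
    have hx3 : x % 3 = 0 ∨ x % 3 = 1 := by
      have : x % 3 ≠ 2 := fun h => hlq (by omega)
      omega
    rcases hx3 with h6 | h6
    · obtain ⟨a, rfl⟩ : ∃ a, x = 3 * a := ⟨x / 3, by omega⟩
      have e1 : ¬ 3 ∣ 3 * a + 2 := by omega
      have e2 : ¬ 3 ∣ (3 * a) ^ 2 + 3 * a + 1 := by
        rintro ⟨c, hc⟩
        have : (3 * a) ^ 2 = 3 * (3 * a ^ 2) := by ring
        omega
      have e3 : ¬ 3 ∣ 3 * a ^ 2 + 3 * a + 1 := by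
        rintro ⟨c, hc⟩
        omega
      have e4 : (3 * a) ^ 2 * ((3 * a + 2) ^ 2 * (((3 * a) ^ 2 + 3 * (3 * a) + 3) * ((3 * a) ^ 2 + 3 * a + 1))) =
          (3 * (3 * a) ^ 2) * ((3 * a + 2) ^ 2 * ((3 * a ^ 2 + 3 * a + 1) * ((3 * a) ^ 2 + 3 * a + 1))) := by ring
      rw [e4] at h0
      have h7 := ((copp _ 2 e1).mul_right ((cop _ e3).mul_right (cop _ e2))).dvd_of_dvd_mul_right h0
      exact le2 _ (by positivity) h7 (by nlinarith)
    · obtain ⟨a, rfl⟩ : ∃ a, x = 3 * a + 1 := ⟨x / 3, by omega⟩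
      have e1 : ¬ 3 ∣ 3 * a + 1 := by omega
      have e2 : ¬ 3 ∣ (3 * a + 1) ^ 2 + 3 * (3 * a + 1) + 3 := by
        rintro ⟨c, hc⟩
        have : (3 * a + 1) ^ 2 = 3 * (3 * a ^ 2 + 2 * a) + 1 := by ring
        omega
      have e3 : ¬ 3 ∣ 3 * a ^ 2 + 3 * a + 1 := by
        rintro ⟨c, hc⟩
        omega
      have e4 : (3 * a + 1) ^ 2 * ((3 * a + 1 + 2) ^ 2 * (((3 * a + 1) ^ 2 + 3 * (3 * a + 1) + 3) *
          ((3 * a + 1) ^ 2 + (3 * a + 1) + 1))) =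
          (3 * (3 * a + 1 + 2) ^ 2) * ((3 * a + 1) ^ 2 * ((3 * a ^ 2 + 3 * a + 1) *
            ((3 * a + 1) ^ 2 + 3 * (3 * a + 1) + 3))) := by ring
      rw [e4] at h0
      have h7 := ((copp _ 2 e1).mul_right ((cop _ e3).mul_right (cop _ e2))).dvd_of_dvd_mul_right h0
      exact le2 _ (by positivity) h7 (by nlinarith)
  have n2 : ¬ l ∣ 2 := fun h => hl2 ((Nat.prime_dvd_prime_iff_eq hl Nat.prime_two).1 h)
  have n3 : ¬ l ∣ 3 := fun h => hl3 ((Nat.prime_dvd_prime_iff_eq hl Nat.prime_three).1 h)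
  by_cases hA : l ∣ x
  · have e1 : ¬ l ∣ x + 2 := fun h => n2 ((Nat.dvd_add_right hA).1 h)
    have e2 : ¬ l ∣ x ^ 2 + 3 * x + 3 := fun h => n3 ((Nat.dvd_add_right (by
      rw [pow_two, ← add_mul]; exact hA.mul_left _)).1 h)
    have e3 : ¬ l ∣ x ^ 2 + x + 1 := fun h => hl.one_lt.ne' (Nat.dvd_one.1 ((Nat.dvd_add_right (by
      rw [pow_two]; exact (hA.mul_left x).add hA)).1 h))
    have h7 := ((copp _ 2 e1).mul_right ((cop _ e2).mul_right (cop _ e3))).dvd_of_dvd_mul_right h0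
    exact le2 _ (by positivity) h7 (by nlinarith)
  by_cases hB : l ∣ x + 2
  · have e2 : ¬ l ∣ x ^ 2 + 3 * x + 3 := fun h => hl.one_lt.ne' (Nat.dvd_one.1 ((Nat.dvd_add_right
      (show l ∣ (x + 2) * (x + 1) from hB.mul_right _)).1 (by
        rw [show (x + 2) * (x + 1) + 1 = x ^ 2 + 3 * x + 3 by ring]; exact h)))
    have e3 : ¬ l ∣ x ^ 2 + x + 1 := fun h => n3 (by
      have h8 : l ∣ (x ^ 2 + x + 1) + (x + 2) := h.add hB
      have h9 : (x ^ 2 + x + 1) + (x + 2) = (x + 2) * x + 3 := by ring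
      rw [h9] at h8
      exact (Nat.dvd_add_right (hB.mul_right x)).1 h8)
    have h6 := (copp _ 2 hA).dvd_of_dvd_mul_left h0
    have h7 := ((cop _ e2).mul_right (cop _ e3)).dvd_of_dvd_mul_right h6
    exact le2 _ (by positivity) h7 (by nlinarith)
  have h6 := (copp _ 2 hB).dvd_of_dvd_mul_left ((copp _ 2 hA).dvd_of_dvd_mul_left h0)
  by_cases hC : l ∣ x ^ 2 + 3 * x + 3
  · have e3 : ¬ l ∣ x ^ 2 + x + 1 := fun h => by
      have h8 : x ^ 2 + 3 * x + 3 = (x ^ 2 + x + 1) + 2 * (x + 1) := by ring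
      rw [h8] at hC
      rcases hl.dvd_mul.1 ((Nat.dvd_add_right h).1 hC) with h9 | h9
      · exact n2 h9
      · exact hlq h9
    exact le2 _ (by positivity) ((cop _ e3).dvd_of_dvd_mul_right h6) (by nlinarith)
  · exact le2 _ (by positivity) ((cop _ hC).dvd_of_dvd_mul_left h6) (by nlinarith)

theorem two_growth {f : ℕ} (h : 8 ≤ f) : 17 * f ≤ 2 ^ f := by
  induction f, h using Nat.le_induction with
  | base => norm_num
  | succ k hk ih => rw [pow_succ]; omega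

theorem three_growth {f : ℕ} (h : 5 ≤ f) : 37 * f ≤ 3 ^ f := by
  induction f, h using Nat.le_induction with
  | base => norm_num
  | succ k hk ih => rw [pow_succ]; omega

theorem five_growth {f : ℕ} (h : 4 ≤ f) : 10 * f ≤ 5 ^ f := by
  induction f, h using Nat.le_induction with
  | base => norm_num
  | succ k hk ih => rw [pow_succ]; omega

theorem nf {p f w u : ℕ} (hp : p.Prime) (hf : 1 ≤ f) (h175 : 175 < p ^ f) (hw : p ^ w ∣ 6) (hu : p ^ u ∣ f) :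
    p ^ (2 * w + u) * (4 * (p ^ f + 1) ^ 2 + 1) < (p ^ f) ^ 3 := by
  have hu' : p ^ u ≤ f := Nat.le_of_dvd (by omega) hu
  have key : ∀ K, K * p ^ (2 * w + u) ≤ p ^ f → (4 * (p ^ f + 1) ^ 2 + 1) < K * (p ^ f) ^ 2 →
      p ^ (2 * w + u) * (4 * (p ^ f + 1) ^ 2 + 1) < (p ^ f) ^ 3 := by
    intro K h1 h2
    have h3 : 0 < p ^ (2 * w + u) := pow_pos hp.pos _
    calc p ^ (2 * w + u) * (4 * (p ^ f + 1) ^ 2 + 1) < p ^ (2 * w + u) * (K * (p ^ f) ^ 2) :=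
          Nat.mul_lt_mul_of_pos_left h2 h3
      _ = (K * p ^ (2 * w + u)) * (p ^ f) ^ 2 := by ring
      _ ≤ p ^ f * (p ^ f) ^ 2 := Nat.mul_le_mul_right _ h1
      _ = _ := by ring
  by_cases h2 : p = 2
  · subst h2
    have hw1 : w ≤ 1 := by
      by_contra hcon
      have h3 : 2 ^ 2 ∣ 6 := (pow_dvd_pow 2 (by omega)).trans hw
      norm_num at h3
    have hf8 : 8 ≤ f := by
      by_contra hcon
      have : 2 ^ f ≤ 2 ^ 7 := Nat.pow_le_pow_right (by norm_num) (by omega)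
      omega
    have hg := two_growth hf8
    have h4 : 2 ^ (2 * w + u) ≤ 4 * f := by
      rw [pow_add]
      refine Nat.mul_le_mul ?_ hu'
      calc 2 ^ (2 * w) ≤ 2 ^ 2 := Nat.pow_le_pow_right (by norm_num) (by omega)
        _ = 4 := by norm_num
    -- use `K = 17 / 4`
    have h5 : 17 * 2 ^ (2 * w + u) ≤ 4 * 2 ^ f := by omega
    generalize 2 ^ f = q at *
    generalize 2 ^ (2 * w + u) = c at *
    have h6 : 4 * (4 * (q + 1) ^ 2 + 1) < 17 * q ^ 2 := by nlinarith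
    have h7 : 17 * (c * (4 * (q + 1) ^ 2 + 1)) ≤ 4 * q * (4 * (q + 1) ^ 2 + 1) := by
      calc 17 * (c * (4 * (q + 1) ^ 2 + 1)) = (17 * c) * (4 * (q + 1) ^ 2 + 1) := by ring
        _ ≤ _ := Nat.mul_le_mul_right _ h5
    have h8 : 4 * q * (4 * (q + 1) ^ 2 + 1) < 17 * q ^ 3 := by
      calc 4 * q * (4 * (q + 1) ^ 2 + 1) = q * (4 * (4 * (q + 1) ^ 2 + 1)) := by ring
        _ < q * (17 * q ^ 2) := Nat.mul_lt_mul_of_pos_left h6 (by omega)
        _ = 17 * q ^ 3 := by ring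
    omega
  by_cases h3 : p = 3
  · subst h3
    have hw1 : w ≤ 1 := by
      by_contra hcon
      have h3 : 3 ^ 2 ∣ 6 := (pow_dvd_pow 3 (by omega)).trans hw
      norm_num at h3
    have hf5 : 5 ≤ f := by
      by_contra hcon
      have : 3 ^ f ≤ 3 ^ 4 := Nat.pow_le_pow_right (by norm_num) (by omega)
      omega
    have hg := three_growth hf5
    have h4 : 3 ^ (2 * w + u) ≤ 9 * f := by
      rw [pow_add]
      refine Nat.mul_le_mul ?_ hu'
      calc 3 ^ (2 * w) ≤ 3 ^ 2 := Nat.pow_le_pow_right (by norm_num) (by omega)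
        _ = 9 := by norm_num
    have h5 : 37 * 3 ^ (2 * w + u) ≤ 9 * 3 ^ f := by omega
    generalize 3 ^ f = q at *
    generalize 3 ^ (2 * w + u) = c at *
    have h6 : 9 * (4 * (q + 1) ^ 2 + 1) < 37 * q ^ 2 := by nlinarith
    have h7 : 37 * (c * (4 * (q + 1) ^ 2 + 1)) ≤ 9 * q * (4 * (q + 1) ^ 2 + 1) := by
      calc 37 * (c * (4 * (q + 1) ^ 2 + 1)) = (37 * c) * (4 * (q + 1) ^ 2 + 1) := by ring
        _ ≤ _ := Nat.mul_le_mul_right _ h5
    have h8 : 9 * q * (4 * (q + 1) ^ 2 + 1) < 37 * q ^ 3 := by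
      calc 9 * q * (4 * (q + 1) ^ 2 + 1) = q * (9 * (4 * (q + 1) ^ 2 + 1)) := by ring
        _ < q * (37 * q ^ 2) := Nat.mul_lt_mul_of_pos_left h6 (by omega)
        _ = 37 * q ^ 3 := by ring
    omega
  · have h5 : 5 ≤ p := by
      have := hp.two_le
      have : p ≠ 4 := by rintro rfl; exact absurd hp (by norm_num)
      omega
    have hw0 : w = 0 := by
      by_contra hcon
      have h6 : p ∣ 6 := (dvd_pow_self p hcon).trans hw
      have h7 : p = 2 ∨ p = 3 := by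
        have h8 : p ∣ 2 * 3 := h6
        rcases hp.dvd_mul.1 h8 with h | h
        · exact Or.inl ((Nat.prime_dvd_prime_iff_eq hp Nat.prime_two).1 h)
        · exact Or.inr ((Nat.prime_dvd_prime_iff_eq hp Nat.prime_three).1 h)
      omega
    subst hw0
    have hg : 10 * f ≤ p ^ f := by
      rcases Nat.lt_or_ge f 4 with h | h
      · omega
      · exact (five_growth h).trans (Nat.pow_le_pow_left h5 f)
    refine key 10 ?_ ?_
    · rw [mul_zero, zero_add]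
      omega
    · generalize p ^ f = q at *
      nlinarith

end Cfsg.Agent.H420.Rg
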