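import Cfsg.Agent.H420.Rg.G2X
import Cfsg.Agent.H420.Rg.G2C
import Cfsg.Agent.H420.Rg.Base
import Cfsg.Agent.H56.Exc.Fac

/-!
# S3691, `G₂(q)`, `q > 175`: both factors contain a primitive prime (helper420)

* `GD` : the data used;
* `sec` : the proper subgroups containing a primitive prime;
* `noTri_both` : there is no factorization with both factors containing a primitive prime.
-/

set_option autoImplicit false

namespace Cfsg.Agent.H420.Rg

open Cfsg Cfsg.Agent.OrdDiv Cfsg.Agent.H436 Cfsg.Agent.H915.GN Cfsg.Agent.H264.GN Cfsg.Agent.H264.FKS Cfsg.Agent.H325.Same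
  Cfsg.Agent.H56.Exc

variable {p f : ℕ}

/-- the data of `G₂(p ^ f)` -/
structure GD (T : Type) [Group T] [Finite T] (p f : ℕ) : Prop where
  hp : p.Prime
  hf : 1 ≤ f
  card : Nat.card T = (p ^ f) ^ 6 * (((p ^ f) ^ 2 - 1) * ((p ^ f) ^ 6 - 1))
  big : ∀ r, Prim (p ^ f) 3 r ∨ Prim (p ^ f) 6 r → ∃ m, Big T r m 6 ∧ ¬ p ∣ m
  bt : ∀ r, Prim (p ^ f) 3 r ∨ Prim (p ^ f) 6 r → BT T p r
  par : ParP p T
  nm : ∀ (S : Type) [Group S] [Finite S] [IsSimpleGroup S], ¬ IsMulCommutative S → ∃ g, IsNamed g S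
  solv : CycFixSolv.{0}

/-- a primitive prime of one of the two classes -/
def PP (p f r : ℕ) : Prop := Prim p (f * 3) r ∨ Prim p (f * 6) r

theorem PP.q {r : ℕ} (hf : 1 ≤ f) (h : PP p f r) : Prim (p ^ f) 3 r ∨ Prim (p ^ f) 6 r :=
  h.elim (fun h => Or.inl (prim_pow hf h)) (fun h => Or.inr (prim_pow hf h))

theorem PP.prime {r : ℕ} (h : PP p f r) : r.Prime := h.elim (fun h => h.prime) (fun h => h.prime)

theorem PP.five {r : ℕ} (hf : 1 ≤ f) (h : PP p f r) : 5 ≤ r := by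
  have h1 : 3 < r := by
    rcases h with h | h
    · have := lt_of_prim h; omega
    · have := lt_of_prim h; omega
  have : r ≠ 4 := by rintro rfl; exact absurd h.prime (by norm_num)
  omega

/-- the `p`-part of the order of the group -/
theorem fact_card {p f : ℕ} (hp : p.Prime) (hf : 1 ≤ f) :
    ((p ^ f) ^ 6 * (((p ^ f) ^ 2 - 1) * ((p ^ f) ^ 6 - 1))).factorization p = 6 * f := by
  have hq : 2 ≤ p ^ f := hp.two_le.trans (Nat.le_self_pow (by omega) _)
  have hnd : ∀ n, 1 ≤ n → ¬ p ∣ (p ^ f) ^ n - 1 := by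
    intro n hn h
    have h1 : p ∣ (p ^ f) ^ n := (dvd_pow_self p (by omega)).trans (dvd_pow_self _ (by omega))
    have h2 : 1 ≤ (p ^ f) ^ n := Nat.one_le_pow _ _ (by omega)
    have h3 := Nat.dvd_sub h1 h
    rw [Nat.sub_sub_self h2] at h3
    exact hp.one_lt.ne' (Nat.dvd_one.1 h3)
  have h2 := sub_pos' (d := 2) hq (by norm_num)
  have h6 := sub_pos' (d := 6) hq (by norm_num)
  rw [Nat.factorization_mul (by positivity) (by positivity), Nat.factorization_mul h2.ne' h6.ne']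
  simp only [Finsupp.add_apply]
  rw [Nat.factorization_eq_zero_of_not_dvd (hnd 2 (by norm_num)), Nat.factorization_eq_zero_of_not_dvd (hnd 6 (by norm_num)),
    ← pow_mul, hp.factorization_pow]
  simp
  ring

/-- the order of `L₂(q³)` is divisible by the odd divisors of `q³ - 1` -/
theorem psl2_dvd {p n c s : ℕ} (hp : p.Prime) (hn : 1 ≤ n) (hc : den (.psl 2 (p ^ n)) * c = num (.psl 2 (p ^ n)))
    (hs : s.Prime) (hs2 : ¬ s ∣ 2) (hd : s ∣ p ^ n - 1) : s ∣ c := by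
  have hq : 2 ≤ p ^ n := hp.two_le.trans (Nat.le_self_pow (by omega) _)
  generalize p ^ n = Q at *
  have h1 : Nat.gcd 2 (Q - 1) * (Q - 1) * c = (Q ^ 2 - Q ^ 0) * ((Q ^ 2 - Q ^ 1) * 1) := hc
  obtain ⟨x, rfl⟩ : ∃ x, Q = x + 1 := ⟨Q - 1, by omega⟩
  have e0 : (x + 1) ^ 2 - (x + 1) ^ 0 = x * (x + 2) := by rw [pow_zero]; apply Nat.sub_eq_of_eq_add; ring
  have e1 : (x + 1) ^ 2 - (x + 1) ^ 1 = (x + 1) * x := by rw [pow_one]; apply Nat.sub_eq_of_eq_add; ring
  rw [e0, e1, Nat.add_sub_cancel] at h1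
  have hx : 0 < x := by omega
  have h2 : Nat.gcd 2 x * c = x * ((x + 2) * (x + 1)) := by
    apply Nat.eq_of_mul_eq_mul_left hx
    calc x * (Nat.gcd 2 x * c) = Nat.gcd 2 x * x * c := by ring
      _ = _ := h1
      _ = _ := by ring
  rw [Nat.add_sub_cancel] at hd
  have h3 : s ∣ Nat.gcd 2 x * c := by rw [h2]; exact hd.mul_right _
  rcases hs.dvd_mul.1 h3 with h4 | h4
  · exact absurd (h4.trans (Nat.gcd_dvd_left _ _)) hs2
  · exact h4

variable {T : Type} [Group T] [Finite T]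

/-- **the proper subgroups containing a primitive prime** -/
theorem sec (D : GD T p f) (h175 : 175 < p ^ f) {M : Subgroup T} (hM : M ≠ ⊤) {r : ℕ} (hr : PP p f r)
    (hrM : r ∣ Nat.card M) :
    (∃ w, p ^ w ∣ 6 ∧ p ^ (Nat.card M).factorization p ≤ p ^ w * (4 * (p ^ f + 1) ^ 2 + 1)) ∨
    (∃ w, p ^ w ∣ 6 ∧ (Nat.card M).factorization p ≤ 3 * f + w ∧ ∃ g c, Cond g ∧ den g * c = num g ∧ c ∣ Nat.card M ∧
      (((∀ s, Prim p (f * 3) s → s ∣ c) ∧ L3b p f g) ∨
       ((∀ s, Prim p (f * 6) s → s ∣ c) ∧ (L6b p f g ∨ ∀ s, Prim p (f * 3) s → s ∣ c)))) := by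
  have hp := D.hp
  have hf := D.hf
  have hq2 : 2 ≤ p ^ f := by omega
  set a := (Nat.card M).factorization p with ha
  have hMpos : Nat.card M ≠ 0 := Nat.card_pos.ne'
  have haM : p ^ a ∣ Nat.card M := Nat.ordProj_dvd _ _
  by_cases h6 : p ^ a ∣ 6
  · exact Or.inl ⟨a, h6, Nat.le_mul_of_pos_right _ (by positivity)⟩
  obtain ⟨m, hb, hpm⟩ := D.big r (hr.q hf)
  have htori : Tori T p (fun (_ : Unit) s => s = r) (fun _ => m) (fun _ => 6) := by
    refine ⟨?_, ?_, fun _ => ⟨r, rfl⟩, ?_, fun _ => hpm⟩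
    · rintro _ _ rfl; exact hb
    · rintro _ _ rfl; exact hrM.trans (Subgroup.card_subgroup_dvd_card M)
    · intro i j _ hij; exact absurd rfl hij
  obtain ⟨S, _, _, n, hSs, hSna, hcard, hSr, hn6⟩ := htori.section_p D.solv hp () M
    (by rintro _ rfl; exact hrM) (by rintro _ rfl; exact D.bt _ (hr.q hf)) haM h6
  obtain ⟨hSb, hrS, -⟩ := hSr r rfl
  obtain ⟨g, hg⟩ := D.nm S hSna
  have hSpos : Nat.card S ≠ 0 := Nat.card_pos.ne'
  have hn0 : n ≠ 0 := by
    rintro rfl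
    rw [mul_zero] at hcard
    exact hMpos hcard
  set w := n.factorization p with hw
  set b := (Nat.card S).factorization p with hbd
  have hab : a = b + w := by
    rw [ha, hcard, Nat.factorization_mul hSpos hn0, Finsupp.add_apply]
  have hw6 : p ^ w ∣ 6 := hn6 w (Nat.ordProj_dvd _ _)
  have hbS : p ^ b ∣ Nat.card S := Nat.ordProj_dvd _ _
  have hSM : Nat.card S ∣ Nat.card M := ⟨n, hcard⟩
  have hST : Nat.card S ∣ (p ^ f) ^ 6 * (((p ^ f) ^ 2 - 1) * ((p ^ f) ^ 6 - 1)) := by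
    rw [← D.card]; exact hSM.trans (Subgroup.card_subgroup_dvd_card M)
  have small : p ^ b ≤ 4 * (p ^ f + 1) ^ 2 + 1 →
      ∃ w, p ^ w ∣ 6 ∧ p ^ a ≤ p ^ w * (4 * (p ^ f + 1) ^ 2 + 1) := fun h =>
    ⟨w, hw6, by rw [hab, add_comm b w, pow_add]; exact Nat.mul_le_mul_left _ h⟩
  by_cases hch : HasChar p g
  swap
  · exact Or.inl (small (cross_le hg hp hf h175 hST hSb (hr.five hf) hrS hch hbS))
  rcases charp_one hp hf h175 hg.cond hch hg.eq hST hr hrS with ⟨h3, hL | hL⟩ | ⟨h6', hL⟩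
  · -- the `p`-part `q ^ (3 / 2)`
    left
    apply small
    have h1 : 2 * b ≤ 3 * f := by
      rcases hL with ⟨h, rfl, rfl | rfl | rfl⟩ | ⟨h, rfl, rfl⟩
      · have := pp_all hp (show 1 ≤ 3 * h by omega) hg.cond hch rfl hg.eq hbS
        have h2 : b ≤ 3 * h * 1 := this
        omega
      · have := pp_all hp (show 1 ≤ h by omega) hg.cond hch rfl hg.eq hbS
        have h2 : b ≤ h * 3 := this
        omega
      · have := pp_all hp (show 1 ≤ h by omega) hg.cond hch rfl hg.eq hbS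
        have h2 : b ≤ h * 3 := this
        omega
      · have := pp_all hp (show 1 ≤ 3 * h by omega) hg.cond hch rfl hg.eq hbS
        have h2 : b ≤ 3 * h * 2 := this
        omega
    have h2 : p ^ b ≤ (p ^ f) ^ 2 := by
      rw [← pow_mul]
      exact Nat.pow_le_pow_right hp.pos (by omega)
    have h3 : (p ^ f) ^ 2 ≤ (p ^ f + 1) ^ 2 := Nat.pow_le_pow_left (by omega) 2
    omega
  · -- the `p`-part `q ^ 3`
    right
    have h1 : b ≤ 3 * f := by
      rcases hL with rfl | ⟨h, rfl, rfl | rfl⟩ | ⟨h, rfl, rfl⟩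
      · have := pp_all hp hf hg.cond hch rfl hg.eq hbS
        have h2 : b ≤ f * 3 := this
        omega
      · have := pp_all hp (show 1 ≤ h by omega) hg.cond hch rfl hg.eq hbS
        have h2 : b ≤ h * 6 := this
        omega
      · have := pp_all hp (show 1 ≤ h by omega) hg.cond hch rfl hg.eq hbS
        have h2 : b ≤ h * 6 := this
        omega
      · have := pp_all hp (show 1 ≤ h by omega) hg.cond hch rfl hg.eq hbS
        have h2 : b ≤ h * 12 := this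
        omega
    exact ⟨w, hw6, by omega, g, Nat.card S, hg.cond, hg.eq, hSM, Or.inl ⟨h3, hL⟩⟩
  · -- the exponent `6 f`
    have full : p ^ (6 * f) ∣ Nat.card S → False := by
      intro h
      have h1 := M.card_mul_index
      have h2 : ¬ p ∣ M.index := by
        intro h3
        have h4 : p ^ (6 * f) * p ∣ Nat.card T := by
          rw [← h1]
          exact mul_dvd_mul (h.trans hSM) h3
        rw [← pow_succ, D.card] at h4
        have hpos : (p ^ f) ^ 6 * (((p ^ f) ^ 2 - 1) * ((p ^ f) ^ 6 - 1)) ≠ 0 := by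
          rw [← D.card]; exact Nat.card_pos.ne'
        have h5 := (hp.pow_dvd_iff_le_factorization hpos).1 h4
        rw [fact_card hp hf] at h5
        omega
      exact D.par.elim (D.bt r (hr.q hf)) M hM (fun h3 => h2 ((dvd_pow_self p two_ne_zero).trans h3)) hrM
    rcases hL with rfl | rfl | rfl | ⟨hp3, rfl⟩ | ⟨hp2, h, rfl, rfl | rfl⟩
    · exfalso
      apply full
      have h1 : 1 * Nat.card S = (p ^ f) ^ 6 * (((p ^ f) ^ 2 - 1) * ((p ^ f) ^ 6 - 1)) := hg.eq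
      rw [one_mul] at h1
      rw [h1, mul_comm 6 f, pow_mul]
      exact dvd_mul_right _ _
    · right
      have h1 : b ≤ 3 * f * 1 := pp_all hp (show 1 ≤ 3 * f by omega) hg.cond hch rfl hg.eq hbS
      refine ⟨w, hw6, by omega, _, Nat.card S, hg.cond, hg.eq, hSM, Or.inr ⟨h6', Or.inr fun s hs => ?_⟩⟩
      refine psl2_dvd hp (show 1 ≤ 3 * f by omega) hg.eq hs.prime ?_ ?_
      · intro h2
        have h3 := lt_of_prim hs
        have := Nat.le_of_dvd (by norm_num) h2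
        omega
      · rw [hs.dvd_iff, mul_comm]
    · right
      have h1 : b ≤ f * 3 := pp_all hp hf hg.cond hch rfl hg.eq hbS
      exact ⟨w, hw6, by omega, _, Nat.card S, hg.cond, hg.eq, hSM, Or.inr ⟨h6', Or.inl (Or.inl rfl)⟩⟩
    · right
      have h1 : b ≤ f * 3 := pp_all hp hf hg.cond hch rfl hg.eq hbS
      exact ⟨w, hw6, by omega, _, Nat.card S, hg.cond, hg.eq, hSM, Or.inr ⟨h6', Or.inl (Or.inr (Or.inl ⟨hp3, rfl⟩))⟩⟩
    · exfalso
      apply full
      have h1 : 1 * Nat.card S = (p ^ h) ^ 12 * ((p ^ h - 1) * ((p ^ h) ^ 3 + 1) * ((p ^ h) ^ 4 - 1) * ((p ^ h) ^ 6 + 1)) :=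
        hg.eq
      rw [one_mul] at h1
      rw [h1, show 6 * (2 * h) = h * 12 by ring, pow_mul]
      exact dvd_mul_right _ _
    · right
      have h1 : b ≤ 3 * h * 2 := pp_all hp (show 1 ≤ 3 * h by omega) hg.cond hch rfl hg.eq hbS
      exact ⟨w, hw6, by omega, _, Nat.card S, hg.cond, hg.eq, hSM,
        Or.inr ⟨h6', Or.inl (Or.inr (Or.inr ⟨hp2, h, rfl, rfl⟩))⟩⟩

/-- **no factorization with primitive primes in both factors** -/
theorem noTri_both (D : GD T p f) (h175 : 175 < p ^ f) {X Y : Subgroup T} {e : ℕ} (h : Tri T X Y e)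
    (he : ∀ u, p ^ u ∣ e → p ^ u ∣ f) (hcyc : ∀ r, PP p f r → ∀ P : Subgroup T, IsPGroup r P → IsCyclic P)
    {r s : ℕ} (hr : PP p f r) (hs : PP p f s) (hrX : r ∣ Nat.card X) (hsY : s ∣ Nat.card Y) : False := by
  have hp := D.hp
  have hf := D.hf
  have hv := h.val p
  rw [D.card, fact_card hp hf] at hv
  set u := e.factorization p with hu
  have huf : p ^ u ∣ f := he u (Nat.ordProj_dvd _ _)
  have hq : 0 < p ^ f := by omega
  have hX := sec D h175 h.left hr hrX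
  have hY := sec D h175 h.right hs hsY
  -- a common bound of the exponents of `p` in 6
  obtain ⟨W, hW, hWmax⟩ : ∃ W, p ^ W ∣ 6 ∧ ∀ w, p ^ w ∣ 6 → p ^ w ≤ p ^ W := by
    refine ⟨(6 : ℕ).factorization p, Nat.ordProj_dvd _ _, fun w hw => ?_⟩
    exact Nat.pow_le_pow_right hp.pos ((hp.pow_dvd_iff_le_factorization (by norm_num)).1 hw)
  have hnf := nf hp hf h175 hW huf
  have hB : 4 * (p ^ f + 1) ^ 2 + 1 ≤ (p ^ f) ^ 3 := by
    have h1 : 1 ≤ p ^ (2 * W + u) := Nat.one_le_pow _ _ hp.pos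
    have h2 := Nat.mul_le_mul_right (4 * (p ^ f + 1) ^ 2 + 1) h1
    omega
  have bigbd : ∀ {a w : ℕ}, p ^ w ∣ 6 → a ≤ 3 * f + w → p ^ a ≤ p ^ W * (p ^ f) ^ 3 := by
    intro a w hw ha
    calc p ^ a ≤ p ^ (w + f * 3) := Nat.pow_le_pow_right hp.pos (by omega)
      _ = p ^ w * (p ^ f) ^ 3 := by rw [pow_add, pow_mul]
      _ ≤ _ := Nat.mul_le_mul_right _ (hWmax w hw)
  have smallbd : ∀ {a w : ℕ}, p ^ w ∣ 6 → p ^ a ≤ p ^ w * (4 * (p ^ f + 1) ^ 2 + 1) →
      p ^ a ≤ p ^ W * (4 * (p ^ f + 1) ^ 2 + 1) := fun hw ha => ha.trans (Nat.mul_le_mul_right _ (hWmax _ hw))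
  -- one small factor is impossible
  have key : ∀ {a b : ℕ}, a + b + u = 6 * f → p ^ a ≤ p ^ W * (4 * (p ^ f + 1) ^ 2 + 1) → p ^ b ≤ p ^ W * (p ^ f) ^ 3 →
      False := by
    intro a b hab ha hb
    have h1 : (p ^ f) ^ 3 * (p ^ f) ^ 3 = p ^ a * p ^ b * p ^ u := by
      have h0 : p ^ a * p ^ b * p ^ u = p ^ (6 * f) := by rw [← pow_add, ← pow_add, hab]
      rw [h0, ← pow_mul, ← pow_add]
      congr 1
      ring
    have h2 : p ^ a * p ^ b * p ^ u ≤ (p ^ W * (4 * (p ^ f + 1) ^ 2 + 1)) * (p ^ W * (p ^ f) ^ 3) * p ^ u :=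
      Nat.mul_le_mul_right _ (Nat.mul_le_mul ha hb)
    have h3 : (p ^ W * (4 * (p ^ f + 1) ^ 2 + 1)) * (p ^ W * (p ^ f) ^ 3) * p ^ u =
        (p ^ (2 * W + u) * (4 * (p ^ f + 1) ^ 2 + 1)) * (p ^ f) ^ 3 := by
      rw [pow_add, two_mul, pow_add]
      ring
    have h4 : (p ^ (2 * W + u) * (4 * (p ^ f + 1) ^ 2 + 1)) * (p ^ f) ^ 3 < (p ^ f) ^ 3 * (p ^ f) ^ 3 :=
      Nat.mul_lt_mul_of_pos_right hnf (by positivity)
    omega
  rcases hX with ⟨w, hw, hX⟩ | ⟨w, hw, haX, g, c, hg, hc, hcX, hXL⟩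
  · rcases hY with ⟨w', hw', hY⟩ | ⟨w', hw', haY, -⟩
    · exact key hv (smallbd hw hX) ((smallbd hw' hY).trans (Nat.mul_le_mul_left _ hB))
    · exact key hv (smallbd hw hX) (bigbd hw' haY)
  rcases hY with ⟨w', hw', hY⟩ | ⟨w', hw', haY, g', c', hg', hc', hcY, hYL⟩
  · exact key (by omega) (smallbd hw' hY) (bigbd hw haX)
  -- the existence of the primes
  have hp2f : p = 2 → 8 ≤ f := by
    rintro rfl
    by_contra hcon
    have : 2 ^ f ≤ 2 ^ 7 := Nat.pow_le_pow_right (by norm_num) (by omega)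
    omega
  obtain ⟨s3, hs3⟩ := exists_prim (q := p) (e := f * 3) hp.two_le (by omega) (by rintro ⟨h2, h6⟩; have := hp2f h2; omega)
  obtain ⟨s6, hs6⟩ := exists_prim (q := p) (e := f * 6) hp.two_le (by omega) (by rintro ⟨h2, h6⟩; have := hp2f h2; omega)
  have no3 : s3 ∣ c → s3 ∣ c' → False := fun h1 h2 =>
    h.both s3 hs3.prime (hcyc s3 (Or.inl hs3)) (h1.trans hcX) (h2.trans hcY)
  have no6 : s6 ∣ c → s6 ∣ c' → False := fun h1 h2 =>
    h.both s6 hs6.prime (hcyc s6 (Or.inr hs6)) (h1.trans hcX) (h2.trans hcY)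
  have hle : c * c' ≤ (p ^ f) ^ 6 * (((p ^ f) ^ 2 - 1) * ((p ^ f) ^ 6 - 1)) := by
    rw [← D.card, ← h.card]
    have h1 : c * c' ≤ Nat.card X * Nat.card Y :=
      Nat.mul_le_mul (Nat.le_of_dvd Nat.card_pos hcX) (Nat.le_of_dvd Nat.card_pos hcY)
    exact h1.trans (Nat.le_mul_of_pos_right _ h.epos)
  rcases hXL with ⟨h3, hL⟩ | ⟨h6, hL⟩
  · rcases hYL with ⟨h3', hL'⟩ | ⟨h6', hL' | h3'⟩
    · exact no3 (h3 s3 hs3) (h3' s3 hs3)
    · exact pair_false hp hf h175 hg' hg hL' hL hc' hc (by rw [mul_comm]; exact hle)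
    · exact no3 (h3 s3 hs3) (h3' s3 hs3)
  · rcases hYL with ⟨h3', hL'⟩ | ⟨h6', -⟩
    · rcases hL with hL | h3
      · exact pair_false hp hf h175 hg hg' hL hL' hc hc' hle
      · exact no3 (h3 s3 hs3) (h3' s3 hs3)
    · exact no6 (h6 s6 hs6) (h6' s6 hs6)

end Cfsg.Agent.H420.Rg
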