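import Cfsg.Agent.H325.Same.BigChar
import Cfsg.Agent.H290.ElRich
import Cfsg.Agent.H290.ElCross
import Cfsg.Agent.H56.Exc.Big
import Cfsg.Agent.H420.Rg.G2N
import Cfsg.Agent.H420.Rg.Alt

/-!
# S3691, `G₂(q)`: the `p`-part of a simple section which is not of Lie type in characteristic `p` (helper420)

`cross_le` : it is at most `4 (q + 1)² + 1`.
-/

set_option autoImplicit false

namespace Cfsg.Agent.H420.Rg

universe u

open Cfsg Cfsg.Agent.OrdDiv Cfsg.Agent.H436 Cfsg.Agent.H902 Cfsg.Agent.H902.Names Cfsg.Agent.H290.ElTab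
  Cfsg.Agent.H290.ElCross Cfsg.Agent.H325.Same Cfsg.Agent.H56.Exc Cfsg.Agent.H915.GN Cfsg.Agent.H264.GN Cfsg.Agent.H264.FKS

/-- the sporadic groups -/
def tabSp : Bool := spor.all fun x => (pd x.2).all fun p => (List.range 25).all fun f => Nat.ble (p ^ f) 175 ||
  (!((p ^ f) ^ 6 * (((p ^ f) ^ 2 - 1) * ((p ^ f) ^ 6 - 1)) % x.2 == 0) ||
    (List.range 50).all fun k => Nat.ble (p ^ k) (4 * (p ^ f + 1) ^ 2 + 1) || !(x.2 % p ^ k == 0))

def tabSp50 : Bool := spor.all fun x => (pd x.2).all fun p => !(x.2 % p ^ 50 == 0)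

set_option maxRecDepth 10000 in
theorem tabSp_true : tabSp = true := by decide +kernel

theorem tabSp50_true : tabSp50 = true := by decide +kernel

theorem spor_le {x : Grp × ℕ} (hx : x ∈ spor) {p f k : ℕ} (hp : p.Prime) (h175 : 175 < p ^ f)
    (hd : x.2 ∣ (p ^ f) ^ 6 * (((p ^ f) ^ 2 - 1) * ((p ^ f) ^ 6 - 1))) (hk : p ^ k ∣ x.2) :
    p ^ k ≤ 4 * (p ^ f + 1) ^ 2 + 1 := by
  by_contra hcon
  push Not at hcon
  have hs' : smooth x.2 = true := List.all_eq_true.1 smooth_spor x hx
  have hk0 : k ≠ 0 := by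
    rintro rfl
    rw [pow_zero] at hcon
    omega
  have hpx : p ∈ pd x.2 := mem_pd hs' hp ((dvd_pow_self p hk0).trans hk)
  have hk50 : k < 50 := by
    by_contra h50
    have h1 := List.all_eq_true.1 (List.all_eq_true.1 tabSp50_true x hx) p hpx
    have h2 : p ^ 50 ∣ x.2 := (pow_dvd_pow p (by omega)).trans hk
    simp [Nat.mod_eq_zero_of_dvd h2] at h1
  have hf25 : f < 25 := by
    by_contra h25
    have h1 : p ^ k ≤ p ^ (2 * f) := Nat.pow_le_pow_right hp.pos (by omega)
    have h2 : p ^ (2 * f) = (p ^ f) ^ 2 := by rw [← pow_mul, mul_comm]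
    have h3 : (p ^ f) ^ 2 ≤ (p ^ f + 1) ^ 2 := Nat.pow_le_pow_left (by omega) 2
    omega
  have h1 := List.all_eq_true.1 (List.all_eq_true.1 (List.all_eq_true.1 tabSp_true x hx) p hpx) f (List.mem_range.2 hf25)
  simp only [Bool.or_eq_true, Nat.ble_eq, Bool.not_eq_true', beq_eq_false_iff_ne, ne_eq,
    Nat.mod_eq_zero_of_dvd hd, not_true_eq_false, false_or] at h1
  rcases h1 with h1 | h1
  · omega
  · have h2 := List.all_eq_true.1 h1 k (List.mem_range.2 hk50)
    simp only [Bool.or_eq_true, Nat.ble_eq, Bool.not_eq_true', beq_eq_false_iff_ne, ne_eq,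
      Nat.mod_eq_zero_of_dvd hk, not_true_eq_false, or_false] at h2
    omega

/-- the alternating groups -/
theorem alt_part {p k : ℕ} (hp : p.Prime) (h : p ^ k ∣ 10461394944000) : p ^ k ≤ 123904 := by
  by_contra hcon
  push Not at hcon
  have hk0 : k ≠ 0 := by
    rintro rfl
    norm_num at hcon
  have hp16 : p ∣ 2 * 3 * 5 * 7 * 11 * 13 := by
    have h1 : p ∣ (2 * 3 * 5 * 7 * 11 * 13) ^ 14 := (dvd_pow_self p hk0).trans (h.trans (by norm_num))
    exact hp.dvd_of_dvd_pow h1
  have hmem : p = 2 ∨ p = 3 ∨ p = 5 ∨ p = 7 ∨ p = 11 ∨ p = 13 := by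
    have key : ∀ {a b : ℕ}, b.Prime → p ∣ a * b → p ∣ a ∨ p = b := fun {a b} hb h1 => by
      rcases hp.dvd_mul.1 h1 with h2 | h2
      · exact Or.inl h2
      · exact Or.inr ((Nat.prime_dvd_prime_iff_eq hp hb).1 h2)
    rcases key (by norm_num) hp16 with h1 | h1
    · rcases key (by norm_num) h1 with h1 | h1
      · rcases key (by norm_num) h1 with h1 | h1
        · rcases key (by norm_num) h1 with h1 | h1
          · rcases key (by norm_num) h1 with h1 | h1
            · exact Or.inl ((Nat.prime_dvd_prime_iff_eq hp Nat.prime_two).1 h1)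
            · exact Or.inr (Or.inl h1)
          · exact Or.inr (Or.inr (Or.inl h1))
        · exact Or.inr (Or.inr (Or.inr (Or.inl h1)))
      · exact Or.inr (Or.inr (Or.inr (Or.inr (Or.inl h1))))
    · exact Or.inr (Or.inr (Or.inr (Or.inr (Or.inr h1))))
  have key : ∀ K, ¬ p ^ K ∣ 10461394944000 → p ^ (K - 1) ≤ 123904 → False := by
    intro K h1 h2
    have h3 : k ≤ K - 1 := by
      by_contra h4
      exact h1 ((pow_dvd_pow p (by omega)).trans h)
    have := Nat.pow_le_pow_right hp.pos h3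
    omega
  rcases hmem with rfl | rfl | rfl | rfl | rfl | rfl
  · exact key 15 (by norm_num) (by norm_num)
  · exact key 7 (by norm_num) (by norm_num)
  · exact key 4 (by norm_num) (by norm_num)
  · exact key 3 (by norm_num) (by norm_num)
  · exact key 2 (by norm_num) (by norm_num)
  · exact key 2 (by norm_num) (by norm_num)

variable {p f : ℕ} {g : Grp} {S : Type u} [Group S] [Finite S]

theorem cross_le (hg : IsNamed g S) (hp : p.Prime) (hf : 1 ≤ f) (h175 : 175 < p ^ f)
    (hdvd : Nat.card S ∣ (p ^ f) ^ 6 * (((p ^ f) ^ 2 - 1) * ((p ^ f) ^ 6 - 1))) {r m : ℕ} (hb : Big S r m 6) (h5 : 5 ≤ r)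
    (hrS : r ∣ Nat.card S) (hch : ¬ HasChar p g) {k : ℕ} (hk : p ^ k ∣ Nat.card S) :
    p ^ k ≤ 4 * (p ^ f + 1) ^ 2 + 1 := by
  have T : OrderTable.{u} := table
  have h176 : 177 ^ 2 ≤ (p ^ f + 1) ^ 2 := Nat.pow_le_pow_left (by omega) 2
  have hlt : ¬ (123904 < p ^ k) → p ^ k ≤ 4 * (p ^ f + 1) ^ 2 + 1 := fun h => by omega
  have hlp : ∀ {l : ℕ}, l.Prime → l ≠ p → ¬ l ∣ p ^ f := fun hl hne h =>
    hne ((Nat.prime_dvd_prime_iff_eq hl hp).1 (hl.dvd_of_dvd_pow h))
  rcases name_cases hg.cond with ⟨l, hl, hch'⟩ | ⟨n, hn, rfl⟩ | ⟨x, hx, rfl⟩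
  · have hne : l ≠ p := by
      rintro rfl
      exact hch hch'
    obtain ⟨X, a, -, hR, -⟩ := exists_lie hl hg hch'
    have hM := hR.M_ne
    -- the `l`-part
    have hlM : Art.P l (Nat.card S) ≤ 4 * (p ^ f + 1) ^ 2 := by
      have h1 : Art.P l (Nat.card S) ∣ Nat.card S := Nat.ordProj_dvd _ _
      exact lpart_le hl (hlp hl hne) (by omega) (h1.trans hdvd)
    by_cases hX : X = .L 2
    · subst hX
      rcases Nat.lt_or_ge k 3 with hk3 | hk3
      · have h1 : p ^ k ≤ (p ^ f) ^ 2 := by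
          rw [← pow_mul]
          exact Nat.pow_le_pow_right hp.pos (by omega)
        have h2 : (p ^ f) ^ 2 ≤ (p ^ f + 1) ^ 2 := Nat.pow_le_pow_left (by omega) 2
        omega
      · have h1 := pow_le_L2 hR hp hne hk3 hk
        rw [hR.P_self] at hlM
        have : Art.NN (.L 2) = 1 := rfl
        rw [this, pow_one] at hlM
        omega
    · by_contra hcon
      push Not at hcon
      have hkM : p ^ k ≤ Nat.card S := Nat.le_of_dvd (Nat.pos_of_ne_zero hM) hk
      have h1 : p ^ k ≤ Art.P p (Nat.card S) := le_P hp hM hk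
      have h2 := hR.dom hX hp (Ne.symm hne) ?_ ?_
      · rw [hR.P_self] at hlM
        omega
      · rintro ⟨rfl, h3, rfl⟩
        have := big_U3 hR h3
        omega
      · rintro ⟨rfl, h3, rfl⟩
        have h4 := hR.eq
        rw [h3] at h4
        have h5' : Art.dd (.U 4) 2 = 1 := by decide
        have h6 : 2 ^ Art.NN (.U 4) * Art.num (.U 4) 2 = 25920 := by decide +kernel
        rw [h5', h6] at h4
        omega
  · obtain ⟨e⟩ := hg.real
    have h1 := Cfsg.Agent.H290.ElRich.le_of_dvd_alt hb.prime (by omega) e hrS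
    have h2 := alt_prime_le hb.prime h5 h1 e hb.aut
    have h3 := Cfsg.Agent.H290.ElRich.alt_le hb.prime h5 e hrS fun x hx => by
      have := hb.cyc x hx
      let _ := IsCyclic.commGroup (α := ↥(Subgroup.centralizer ({x} : Set S)))
      infer_instance
    apply hlt
    intro hlt'
    have h4 : 2 * Nat.card S = n.factorial := hg.eq
    have h5 : n.factorial ∣ Nat.factorial 16 := Nat.factorial_dvd_factorial (by omega)
    have h6 : 2 * Nat.card S ∣ 2 * 10461394944000 := by
      rw [h4]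
      exact h5.trans (by decide)
    have h7 : Nat.card S ∣ 10461394944000 := Nat.dvd_of_mul_dvd_mul_left (by norm_num) h6
    have := alt_part hp (hk.trans h7)
    omega
  · have hc : Nat.card S = x.2 := T.spor S x hx hg.real
    rw [hc] at hk hdvd
    exact spor_le hx hp h175 hdvd hk

end Cfsg.Agent.H420.Rg
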